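import Cfsg.Agent.Chev.ReeDegree.Weights
import Cfsg.Agent.Chev.Ree.FourGroup
import Cfsg.Agent.Chev.Ree.Law

/-!
# The least degree of a faithful representation of a small Ree group
-/

set_option autoImplicit false
set_option maxRecDepth 100000
set_option linter.style.haveILetI false
set_option linter.unusedSectionVars false

namespace CfsgLib.Chev.ReeDegree

open Cfsg.Lie CfsgLib.Chev CfsgLib.Chev.Ree Matrix LinearMap

universe u w

variable {K : Type u} [Field K] [Fintype K] [CharP K 3] (m : ℕ) (hK : Nat.card K = 3 ^ (2 * m + 1))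

local notation "θ" => (3 ^ m : ℕ)
local notation "G¹" => twistedG2 K (3 ^ m)

/-- An element of the unipotent group. -/
noncomputable def el (t u v : K) : ↥G¹ := ⟨WR m t u v, WR_mem m t u v⟩

include hK in
theorem el_mul (t u v t' u' v' : K) : el m t u v * el m t' u' v' =
    el m (t + t') (u + u' - t' ^ (3 * θ) * t)
      (v + v' - t' ^ (3 * θ) * t ^ 2 - (u - t' ^ (3 * θ) * t) * t') :=
  Subtype.ext (WR_mul m hK t u v t' u' v')

include hK in
theorem el_comm_z (t u v w : K) : el m t u v * el m 0 0 w = el m 0 0 w * el m t u v := by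
  rw [el_mul m hK, el_mul m hK]
  have h0 : (0 : K) ^ (3 * θ) = 0 := zero_pow (Nat.mul_ne_zero (by norm_num) (theta_ne_zero m))
  simp [h0, add_comm]

include hK in
theorem z_add (a b : K) : el m 0 0 (a + b) = el m 0 0 a * el m 0 0 b := by
  rw [el_mul m hK]
  simp

include hK in
/-- The action of a diagonal element on the centre of the unipotent group. -/
theorem diag_z {z : ℕ → Kˣ} (hz : SG.dg z ∈ H1 K m) (hzG : SG.dg z ∈ G¹) (v : K) :
    (⟨SG.dg z, hzG⟩ : ↥G¹) * el m 0 0 v = el m 0 0 ((SG.chi z 11 : K) * v) * ⟨SG.dg z, hzG⟩ := by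
  refine Subtype.ext ?_
  have h := torus_conj_WR m hK hz 0 0 v
  rw [mul_zero, mul_zero, mul_inv_eq_iff_eq_mul] at h
  exact h

include hK in
theorem chi11_eq {z : ℕ → Kˣ} (hz : SG.dg z ∈ H1 K m) : (SG.chi z 11 : K) = (z 0 : K) ^ (3 + 6 * θ) := by
  rw [chi11, Units.val_mul, Units.val_pow_eq_pow_val, Units.val_pow_eq_pow_val, coord_eq m hK hz]
  ring

include hK in
theorem exists_pow (a : K) (ha : a ≠ 0) : ∃ c : Kˣ, (c : K) ^ (3 + 6 * θ) = a := by
  have hq : 3 ^ (2 * m + 1) = 3 * θ * θ := by ring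
  have hθ : 1 ≤ θ := Nat.one_le_pow _ _ (by norm_num)
  have hcop : (Nat.card Kˣ).Coprime (3 + 6 * θ) := by
    rw [Nat.card_units, hK, hq, show 3 + 6 * θ = 3 * (2 * θ + 1) by ring]
    have h3 : (3 * θ * θ - 1).Coprime 3 := by
      rw [Nat.coprime_comm, Nat.Prime.coprime_iff_not_dvd Nat.prime_three]
      have : 1 ≤ θ * θ := Nat.one_le_iff_ne_zero.2 (Nat.mul_ne_zero (by omega) (by omega))
      rw [mul_assoc]
      omega
    refine Nat.Coprime.mul_right h3 ?_
    refine Nat.coprime_of_dvd' fun k _ h1 h2 => ?_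
    obtain ⟨a', ha'⟩ := h1
    obtain ⟨b', hb'⟩ := h2
    have h4 : 4 * (3 * θ * θ - 1) + 1 = (2 * θ + 1) * (6 * θ - 3) := by
      obtain ⟨r, hr⟩ : ∃ r, θ = r + 1 := ⟨θ - 1, by omega⟩
      rw [hr, show 6 * (r + 1) - 3 = 6 * r + 3 by omega,
        show 3 * (r + 1) * (r + 1) - 1 = 3 * r * r + 6 * r + 2 by
          rw [show 3 * (r + 1) * (r + 1) = 3 * r * r + 6 * r + 3 by ring]; omega]
      ring
    have d1 : k ∣ 4 * (3 * θ * θ - 1) := ⟨4 * a', by rw [ha']; ring⟩
    have d2 : k ∣ 4 * (3 * θ * θ - 1) + 1 := h4 ▸ ⟨b' * (6 * θ - 3), by rw [hb']; ring⟩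
    exact (Nat.dvd_add_right d1).1 d2
  obtain ⟨c, hc⟩ := (powCoprime hcop).surjective (Units.mk0 a ha)
  exact ⟨c, by simpa using congrArg Units.val hc⟩

/-- A faithful representation has degree at least `q² - q + 1`. -/
theorem degree_lower_bound (hm : 1 ≤ m) (hK : Nat.card K = 3 ^ (2 * m + 1)) {V : Type w} [AddCommGroup V]
    [Module ℂ V] [FiniteDimensional ℂ V] (ρ : ↥G¹ →* Module.End ℂ V) (hinj : Function.Injective ρ) :
    (3 ^ (2 * m + 1)) ^ 2 - 3 ^ (2 * m + 1) + 1 ≤ Module.finrank ℂ V := by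
  classical
  set q := 3 ^ (2 * m + 1) with hqdef
  have hcard : Fintype.card K = q := by rw [← Nat.card_eq_fintype_card, hK]
  have hq3 : 3 ≤ q := by
    calc 3 = 3 ^ 1 := by norm_num
      _ ≤ q := Nat.pow_le_pow_right (by norm_num) (by omega)
  let D : Setup K ↥G¹ V := ⟨ρ, fun v => el m 0 0 v, z_add m hK, AddChar.FiniteField.primitiveChar_to_Complex K,
    AddChar.FiniteField.primitiveChar_to_Complex_isPrimitive K⟩
  -- all non-trivial weights have the same multiplicity
  have he : ∀ c : K, c ≠ 0 → D.e c = D.e 1 := by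
    intro c hc
    obtain ⟨a, ha⟩ := exists_pow m hK c⁻¹ (inv_ne_zero hc)
    obtain ⟨z, hz0, hzH, hzG⟩ := exists_coord m hK a
    have hchi : (SG.chi z 11 : K) = c⁻¹ := by rw [chi11_eq m hK hzH, hz0, ha]
    have h := D.e_div (h := ⟨SG.dg z, hzG⟩) (a := c⁻¹) (inv_ne_zero hc)
      (fun v => by rw [← hchi]; exact diag_z m hK hzH hzG v) 1
    rw [one_div, inv_inv] at h
    exact h
  -- some non-trivial weight occurs
  have he1 : D.e 1 ≠ 0 := by
    intro h0
    have hP : D.P 0 = 1 := by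
      rw [← D.sum_P, Finset.sum_eq_single 0 (fun c _ hc => D.P_eq_zero ((he c hc).trans h0)) (by simp)]
    have h1 : ρ (el m 0 0 1) = 1 := by
      have h := D.P_mul_z 0 1
      rw [hP, one_mul, zero_mul, AddChar.map_zero_eq_one, one_smul] at h
      exact h
    have h2 : el m (0 : K) 0 1 = el m 0 0 0 := by
      rw [show el m (0 : K) 0 0 = 1 from Subtype.ext (WR_zero m)]
      exact hinj (h1.trans (map_one ρ).symm)
    exact one_ne_zero (WR_inj m (congrArg Subtype.val h2)).2.2
  -- its multiplicity is at least q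
  have hge : q ≤ D.e 1 := by
    have hcomm : ∀ (t u v w : K), el m t u v * D.z w = D.z w * el m t u v := fun t u v w => el_comm_z m hK t u v w
    have hex : ∀ d : K, d ≠ 0 → ∃ b, D.ψ (1 * (b * d)) ≠ 1 := by
      intro d hd
      by_contra hall
      push Not at hall
      refine D.hψ hd (AddChar.ext _ _ fun b => ?_)
      rw [AddChar.mulShift_apply, mul_comm, ← one_mul (b * d)]
      exact hall b
    have hvan : ∀ t u v : K, (t ≠ 0 ∨ u ≠ 0) → trace ℂ V (D.ρ (el m t u v) * D.P 1) = 0 := by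
      intro t u v htu
      have h0 : (0 : K) ^ (3 * θ) = 0 := zero_pow (Nat.mul_ne_zero (by norm_num) (theta_ne_zero m))
      by_cases ht : t = 0
      · subst ht
        have hu : u ≠ 0 := htu.resolve_left (fun h => h rfl)
        obtain ⟨b, hb⟩ := hex (-u) (neg_ne_zero.2 hu)
        refine D.trace_eq_zero (y := el m b 0 0) (w := b * -u) (c := 1) (hcomm _ _ _) (hcomm _ _ _) ?_ hb
        show el m 0 u v * el m b 0 0 = el m b 0 0 * el m 0 u v * el m 0 0 (b * -u)
        rw [el_mul m hK, el_mul m hK, el_mul m hK]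
        simp only [h0, zero_mul, mul_zero, sub_zero, add_zero, zero_add, zero_pow two_ne_zero]
        congr 1
        ring
      · obtain ⟨b, hb⟩ := hex t ht
        refine D.trace_eq_zero (y := el m 0 b 0) (w := b * t) (c := 1) (hcomm _ _ _) (hcomm _ _ _) ?_ hb
        show el m t u v * el m 0 b 0 = el m 0 b 0 * el m t u v * el m 0 0 (b * t)
        rw [el_mul m hK, el_mul m hK, el_mul m hK]
        simp only [h0, zero_mul, mul_zero, sub_zero, add_zero, zero_add, zero_pow two_ne_zero]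
        rw [add_comm b u]
        congr 1
        ring
    have hsq := D.card_le_sq (ι := K × K) (fun p => el m p.1 p.2 0) 1 (fun p v => hcomm _ _ _ v) fun p => by
      obtain ⟨t₀, u₀⟩ := p
      have hodd : Odd (3 * θ) := Odd.mul (by decide) (Odd.pow (by decide))
      refine ⟨el m (-t₀) (-u₀ - t₀ ^ (3 * θ) * t₀) 0, ?_, ?_⟩
      · show trace ℂ V (ρ (el m (-t₀) (-u₀ - t₀ ^ (3 * θ) * t₀) 0 * el m t₀ u₀ 0) * D.P 1) ≠ 0
        rw [el_mul m hK, show -t₀ + t₀ = 0 by ring,
          show -u₀ - t₀ ^ (3 * θ) * t₀ + u₀ - t₀ ^ (3 * θ) * -t₀ = 0 by ring]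
        set v := (0 : K) + 0 - t₀ ^ (3 * θ) * (-t₀) ^ 2 - (-u₀ - t₀ ^ (3 * θ) * t₀ - t₀ ^ (3 * θ) * -t₀) * t₀
        rw [show ρ (el m 0 0 v) * D.P 1 = D.ψ (1 * v) • D.P 1 from D.z_mul_P 1 v, map_smul, D.trace_P, smul_eq_mul]
        refine mul_ne_zero (fun h => ?_) (Nat.cast_ne_zero.2 he1)
        have := AddChar.map_add_eq_mul D.ψ (1 * v) (-(1 * v))
        rw [h, zero_mul, add_neg_cancel, AddChar.map_zero_eq_one] at this
        exact one_ne_zero this
      · rintro ⟨t, u⟩ hne
        show trace ℂ V (ρ (el m (-t₀) (-u₀ - t₀ ^ (3 * θ) * t₀) 0 * el m t u 0) * D.P 1) = 0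
        rw [el_mul m hK]
        refine hvan _ _ _ ?_
        by_contra hcon
        push Not at hcon
        have ht : t = t₀ := by linear_combination hcon.1
        subst ht
        exact hne (by rw [Prod.mk.injEq]; exact ⟨rfl, by linear_combination hcon.2⟩)
    rw [Fintype.card_prod, hcard] at hsq
    exact Nat.mul_self_le_mul_self_iff.1 hsq
  have hsum : D.e 0 + (q - 1) * D.e 1 = Module.finrank ℂ V := by
    rw [← D.sum_e, ← Finset.add_sum_erase _ _ (Finset.mem_univ (0 : K)),
      Finset.sum_congr rfl fun c hc => he c (Finset.ne_of_mem_erase hc), Finset.sum_const,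
      Finset.card_erase_of_mem (Finset.mem_univ _), Finset.card_univ, hcard, smul_eq_mul]
  by_contra hlt
  push Not at hlt
  have hd : (q - 1) * q = q ^ 2 - q := by rw [Nat.sub_mul, one_mul, pow_two]
  have hmono : (q - 1) * q ≤ (q - 1) * D.e 1 := Nat.mul_le_mul_left _ hge
  have he0 : D.e 0 = 0 := by omega
  have hk : Module.finrank ℂ V = (q - 1) * q := by omega
  -- the involutions have trace zero
  obtain ⟨z, hz, hz0⟩ := hm_coord (K := K)
  have hzH : SG.dg z ∈ H1 K m := hz ▸ hm_mem_H1 m hK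
  have hneg : (SG.chi z 11 : K) = -1 := by
    rw [chi11_eq m hK hzH, hz0]
    exact Odd.neg_one_pow (by rw [Nat.odd_add]; exact iff_of_true (by decide) ((by decide : Even 6).mul_right _))
  have hhm : trace ℂ V (ρ (hmG K m)) = 0 := by
    rw [← mul_one (ρ (hmG K m)), ← D.sum_P, Finset.mul_sum, map_sum]
    refine Finset.sum_eq_zero fun c _ => ?_
    by_cases hc : c = 0
    · rw [hc, D.P_eq_zero he0, mul_zero, map_zero]
    · have hh : ∀ v, hmG K m * D.z v = D.z (-1 * v) * hmG K m := fun v => by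
        have h := diag_z m hK hzH (hz ▸ hm_mem m) v
        rw [hneg] at h
        have e : (⟨SG.dg z, hz ▸ hm_mem m⟩ : ↥G¹) = hmG K m := Subtype.ext hz.symm
        rw [e] at h
        exact h
      have hne : c ≠ c / (-1) := fun h => by
        have h2 : (2 : K) * c = 0 := by rw [div_neg, div_one] at h; linear_combination h
        exact hc ((mul_eq_zero.1 h2).resolve_left two_ne_zero')
      have h2 := D.conj_P (h := hmG K m) (neg_ne_zero.2 one_ne_zero) hh c
      change ρ (hmG K m) * D.P c = D.P (c / -1) * ρ (hmG K m) at h2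
      rw [show ρ (hmG K m) * D.P c = ρ (hmG K m) * D.P c * D.P c by rw [mul_assoc, D.P_mul_P, if_pos rfl],
        LinearMap.trace_mul_comm, h2, ← mul_assoc, D.P_mul_P, if_neg hne, zero_mul, map_zero]
  have hconj : ∀ g : ↥G¹, IsConj g (hmG K m) → trace ℂ V (ρ g) = 0 := fun g hg => by
    obtain ⟨d, hd'⟩ := isConj_iff.1 hg
    rw [← hd', map_mul ρ, map_mul ρ, LinearMap.trace_mul_comm, ← mul_assoc, ← map_mul ρ, inv_mul_cancel, map_one,
      one_mul] at hhm
    exact hhm
  have h4 := D.four_dvd (i := hmG K m) (n := nG K m) (hmG_mul_self m hK) (Subtype.ext (nJ_mul_nJ m hK))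
    (Subtype.ext (nJ_hm m hK).symm) hhm (hconj _ (nG_isConj m hK)) (hconj _ (hm_nG_isConj m hK))
  rw [hk, Nat.dvd_iff_mod_eq_zero, Nat.mul_mod] at h4
  have h8 := q_mod_eight (K := K) (m := m)
  rw [← hqdef] at h8
  have e1 : (q - 1) % 4 = 2 := by omega
  have e2 : q % 4 = 3 := by omega
  rw [e1, e2] at h4
  norm_num at h4

end CfsgLib.Chev.ReeDegree
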