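import Mathlib

/-!
# Weights of a central additive subgroup in a complex representation
-/

set_option autoImplicit false
set_option linter.unusedSectionVars false

namespace CfsgLib.Chev.ReeDegree

open LinearMap

universe u v w

variable {K : Type u} [Field K] [Fintype K] {G : Type v} [Group G] {V : Type w} [AddCommGroup V] [Module ℂ V]
  [FiniteDimensional ℂ V]

/-- The data: a representation, an additive one-parameter subgroup and a primitive character. -/
structure Setup (K : Type u) [Field K] (G : Type v) [Group G] (V : Type w) [AddCommGroup V] [Module ℂ V] where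
  /-- the representation -/
  ρ : G →* Module.End ℂ V
  /-- the subgroup -/
  z : K → G
  z_add : ∀ a b, z (a + b) = z a * z b
  /-- the character -/
  ψ : AddChar K ℂ
  hψ : ψ.IsPrimitive

namespace Setup

variable (D : Setup K G V)

theorem z_zero : D.z 0 = 1 := by
  have h := D.z_add 0 0
  rw [add_zero] at h
  exact mul_eq_left.1 h.symm

/-- The projection to a weight. -/
noncomputable def P (c : K) : Module.End ℂ V :=
  (Fintype.card K : ℂ)⁻¹ • ∑ v, D.ψ (-(c * v)) • D.ρ (D.z v)

theorem P_mul_z (c w : K) : D.P c * D.ρ (D.z w) = D.ψ (c * w) • D.P c := by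
  rw [P, smul_mul_assoc, smul_comm (D.ψ (c * w))]
  congr 1
  rw [Finset.sum_mul, Finset.smul_sum]
  refine Fintype.sum_equiv (Equiv.addRight w) _ _ fun v => ?_
  rw [Equiv.coe_addRight, smul_mul_assoc, ← map_mul, ← D.z_add, smul_smul, ← AddChar.map_add_eq_mul]
  ring_nf

theorem z_mul_P (c w : K) : D.ρ (D.z w) * D.P c = D.ψ (c * w) • D.P c := by
  rw [← D.P_mul_z, P, mul_smul_comm, smul_mul_assoc, Finset.sum_mul, Finset.mul_sum]
  congr 1
  refine Finset.sum_congr rfl fun v _ => ?_
  rw [mul_smul_comm, smul_mul_assoc, ← map_mul, ← map_mul, ← D.z_add, ← D.z_add, add_comm]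

theorem sum_psi (b : K) [DecidableEq K] : ∑ x : K, D.ψ (x * b) = if b = 0 then (Fintype.card K : ℂ) else 0 := by
  rw [AddChar.sum_mulShift b D.hψ]
  split_ifs <;> simp

theorem P_mul_P [DecidableEq K] (c d : K) : D.P c * D.P d = if c = d then D.P c else 0 := by
  conv_lhs => arg 2; rw [P]
  rw [mul_smul_comm, Finset.mul_sum]
  simp only [mul_smul_comm, P_mul_z, smul_smul, ← AddChar.map_add_eq_mul]
  rw [← Finset.sum_smul, smul_smul]
  have e : ∑ v, D.ψ (-(d * v) + c * v) = if c = d then (Fintype.card K : ℂ) else 0 := by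
    rw [show (if c = d then (Fintype.card K : ℂ) else 0) = if c - d = 0 then (Fintype.card K : ℂ) else 0 by
      simp [sub_eq_zero], ← D.sum_psi]
    exact Finset.sum_congr rfl fun v _ => by ring_nf
  rw [e]
  split_ifs with h
  · rw [inv_mul_cancel₀ (Nat.cast_ne_zero.2 Fintype.card_ne_zero), one_smul]
  · rw [mul_zero, zero_smul]

theorem sum_P : ∑ c, D.P c = 1 := by
  classical
  simp only [P, ← Finset.smul_sum]
  rw [Finset.sum_comm]
  simp only [← Finset.sum_smul]
  rw [Finset.sum_eq_single (0 : K)]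
  · simp [D.z_zero, smul_smul, Fintype.card_ne_zero]
  · intro v _ hv
    have e : ∑ c, D.ψ (-(c * v)) = 0 := by
      have h := D.sum_psi (-v)
      rw [if_neg (neg_ne_zero.2 hv)] at h
      simpa using h
    rw [e, zero_smul]
  · simp

theorem commute_P {x : G} (hx : ∀ v, x * D.z v = D.z v * x) (c : K) : D.ρ x * D.P c = D.P c * D.ρ x := by
  rw [P, mul_smul_comm, smul_mul_assoc, Finset.sum_mul, Finset.mul_sum]
  congr 1
  refine Finset.sum_congr rfl fun v _ => ?_
  rw [mul_smul_comm, smul_mul_assoc, ← map_mul, ← map_mul, hx]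

/-- An element acting on the subgroup by a scalar permutes the weights. -/
theorem conj_P {h : G} {a : K} (ha : a ≠ 0) (hh : ∀ v, h * D.z v = D.z (a * v) * h) (c : K) :
    D.ρ h * D.P c = D.P (c / a) * D.ρ h := by
  rw [P, P, mul_smul_comm, smul_mul_assoc, Finset.sum_mul, Finset.mul_sum]
  congr 1
  refine Fintype.sum_equiv (Equiv.mulLeft₀ a ha) _ _ fun v => ?_
  rw [Equiv.mulLeft₀_apply, mul_smul_comm, smul_mul_assoc, ← map_mul, ← map_mul, hh,
    show c / a * (a * v) = c * v by field_simp]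

theorem exists_rank (c : K) : ∃ e : ℕ, trace ℂ V (D.P c) = (e : ℂ) ∧ (e = 0 → D.P c = 0) ∧
    Module.finrank ℂ (LinearMap.range (D.P c)) = e := by
  classical
  have hp : D.P c * D.P c = D.P c := by rw [P_mul_P, if_pos rfl]
  have hproj : LinearMap.IsProj (LinearMap.range (D.P c)) (D.P c) :=
    ⟨fun x => ⟨x, rfl⟩, by rintro x ⟨y, rfl⟩; rw [← Module.End.mul_apply, hp]⟩
  refine ⟨_, hproj.trace, fun h => ?_, rfl⟩
  exact LinearMap.range_eq_bot.1 (Submodule.finrank_eq_zero.1 h)

/-- The multiplicity of a weight. -/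
noncomputable def e (c : K) : ℕ := Module.finrank ℂ (LinearMap.range (D.P c))

theorem trace_P (c : K) : trace ℂ V (D.P c) = (D.e c : ℂ) := by
  obtain ⟨e, h1, -, h3⟩ := D.exists_rank c
  rw [h1, Setup.e, h3]

theorem P_eq_zero {c : K} (h : D.e c = 0) : D.P c = 0 := by
  obtain ⟨e, -, h2, h3⟩ := D.exists_rank c
  exact h2 (by rw [← h3]; exact h)

theorem sum_e : ∑ c, D.e c = Module.finrank ℂ V := by
  have h := congrArg (trace ℂ V) D.sum_P
  rw [map_sum, LinearMap.trace_one] at h
  simp only [trace_P] at h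
  exact_mod_cast h

theorem e_div {h : G} {a : K} (ha : a ≠ 0) (hh : ∀ v, h * D.z v = D.z (a * v) * h) (c : K) :
    D.e (c / a) = D.e c := by
  have h1 : D.ρ h * D.ρ h⁻¹ = 1 := by rw [← map_mul, mul_inv_cancel, map_one]
  have h2 : D.ρ h⁻¹ * D.ρ h = 1 := by rw [← map_mul, inv_mul_cancel, map_one]
  have e : D.P (c / a) = D.ρ h * D.P c * D.ρ h⁻¹ := by rw [D.conj_P ha hh, mul_assoc, h1, mul_one]
  have ht := congrArg (trace ℂ V) e
  rw [LinearMap.trace_mul_comm, ← mul_assoc, h2, one_mul, trace_P, trace_P] at ht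
  exact_mod_cast ht

/-- Elements with a non-trivial commutator in the subgroup have trace zero on a non-trivial weight. -/
theorem trace_eq_zero {x y : G} {w c : K} (hx : ∀ v, x * D.z v = D.z v * x) (hy : ∀ v, y * D.z v = D.z v * y)
    (hxy : x * y = y * x * D.z w) (hw : D.ψ (c * w) ≠ 1) : trace ℂ V (D.ρ x * D.P c) = 0 := by
  have h1 : D.ρ y⁻¹ * (D.ρ x * D.P c) * D.ρ y = D.ψ (c * w) • (D.ρ x * D.P c) := by
    rw [mul_assoc, mul_assoc, ← D.commute_P hy, ← mul_assoc, ← mul_assoc, ← map_mul, ← map_mul,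
      show y⁻¹ * x * y = x * D.z w by rw [mul_assoc, hxy]; group, map_mul, mul_assoc, z_mul_P, mul_smul_comm]
  have h2 : D.ρ y * D.ρ y⁻¹ = 1 := by rw [← map_mul, mul_inv_cancel, map_one]
  have ht := congrArg (trace ℂ V) h1
  rw [LinearMap.trace_mul_comm, ← mul_assoc, h2, one_mul, map_smul, smul_eq_mul] at ht
  by_contra hne
  exact hw (mul_right_cancel₀ hne (ht.symm.trans (one_mul _).symm))

/-- A family with trace-orthogonal elements bounds the multiplicity from below. -/
theorem card_le_sq {ι : Type*} [Fintype ι] (s : ι → G) (c : K) (hs : ∀ i v, s i * D.z v = D.z v * s i)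
    (hdiag : ∀ i, ∃ t : G, trace ℂ V (D.ρ (t * s i) * D.P c) ≠ 0 ∧
      ∀ j, j ≠ i → trace ℂ V (D.ρ (t * s j) * D.P c) = 0) :
    Fintype.card ι ≤ D.e c * D.e c := by
  classical
  set W := LinearMap.range (D.P c)
  let f : ι → (W →ₗ[ℂ] W) := fun i => (D.P c).rangeRestrict ∘ₗ (D.ρ (s i)) ∘ₗ W.subtype
  have li : LinearIndependent ℂ f := by
    rw [Fintype.linearIndependent_iff]
    intro g hg i
    have hzero : ∑ j, g j • (D.ρ (s j) * D.P c) = 0 := by
      refine LinearMap.ext fun x => ?_
      have h := congrArg (fun F : W →ₗ[ℂ] W => ((F ⟨D.P c x, ⟨x, rfl⟩⟩ : W) : V)) hg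
      simp only [f, LinearMap.sum_apply, LinearMap.smul_apply, LinearMap.comp_apply, Submodule.coe_sum,
        Submodule.coe_smul, LinearMap.zero_apply, ZeroMemClass.coe_zero] at h
      simp only [LinearMap.sum_apply, LinearMap.smul_apply, LinearMap.zero_apply, Module.End.mul_apply]
      rw [← h]
      refine Finset.sum_congr rfl fun j _ => ?_
      congr 1
      show D.ρ (s j) (D.P c x) = D.P c (D.ρ (s j) (D.P c x))
      rw [← Module.End.mul_apply (D.P c) (D.ρ (s j)), ← D.commute_P (hs j), Module.End.mul_apply,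
        ← Module.End.mul_apply (D.P c) (D.P c), D.P_mul_P, if_pos rfl]
    obtain ⟨t, ht, ht'⟩ := hdiag i
    have h := congrArg (fun A => trace ℂ V (D.ρ t * A)) hzero
    simp only [mul_zero, map_zero, Finset.mul_sum, mul_smul_comm, map_sum, map_smul, ← mul_assoc,
      ← map_mul, smul_eq_mul] at h
    rw [Finset.sum_eq_single i (fun j _ hj => by rw [ht' j hj, mul_zero]) (by simp)] at h
    exact (mul_eq_zero.1 h).resolve_right ht
  have := li.fintype_card_le_finrank
  rwa [Module.finrank_linearMap] at this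

/-- Three commuting involutions of equal trace zero force the dimension to be divisible by four. -/
theorem four_dvd {i n : G} (hi : i * i = 1) (hn : n * n = 1) (hc : i * n = n * i)
    (h1 : trace ℂ V (D.ρ i) = 0) (h2 : trace ℂ V (D.ρ n) = 0) (h3 : trace ℂ V (D.ρ (i * n)) = 0) :
    4 ∣ Module.finrank ℂ V := by
  set A := D.ρ i
  set B := D.ρ n
  have hA : A * A = 1 := by rw [← map_mul, hi, map_one]
  have hB : B * B = 1 := by rw [← map_mul, hn, map_one]
  have hAB : A * B = B * A := by rw [← map_mul, ← map_mul, hc]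
  set Q : Module.End ℂ V := (4 : ℂ)⁻¹ • ((1 + A) * (1 + B))
  have e1 : (1 + A) * (1 + A) = (2 : ℂ) • (1 + A) := by
    rw [add_mul, mul_add, mul_add, hA]; simp only [one_mul, mul_one, two_smul]; abel
  have e2 : (1 + B) * (1 + B) = (2 : ℂ) • (1 + B) := by
    rw [add_mul, mul_add, mul_add, hB]; simp only [one_mul, mul_one, two_smul]; abel
  have e3 : (1 + B) * (1 + A) = (1 + A) * (1 + B) := by
    simp only [add_mul, mul_add, one_mul, mul_one, hAB]; abel
  have hQ : Q * Q = Q := by
    rw [smul_mul_smul_comm, mul_assoc, ← mul_assoc (1 + B), e3, mul_assoc, e2, ← mul_assoc, e1,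
      smul_mul_smul_comm, smul_smul]
    norm_num [Q]
  have hproj : LinearMap.IsProj (LinearMap.range Q) Q :=
    ⟨fun x => ⟨x, rfl⟩, by rintro x ⟨y, rfl⟩; rw [← Module.End.mul_apply, hQ]⟩
  have ht := hproj.trace
  rw [map_smul, add_mul, mul_add, mul_add, one_mul, one_mul, mul_one, map_add, map_add, map_add,
    LinearMap.trace_one, h2, h1, show A * B = D.ρ (i * n) from (map_mul _ _ _).symm, h3, smul_eq_mul] at ht
  simp only [add_zero] at ht
  refine ⟨Module.finrank ℂ (LinearMap.range Q), ?_⟩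
  have : (Module.finrank ℂ V : ℂ) = ((4 * Module.finrank ℂ (LinearMap.range Q) : ℕ) : ℂ) := by
    push_cast; rw [← ht]; ring
  exact_mod_cast this

end Setup

end CfsgLib.Chev.ReeDegree
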